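import Cfsg.Agent.RI.BC2

/-! Bicyclic `p`-groups are metacyclic for odd `p` (Huppert). -/

set_option autoImplicit false
set_option linter.unusedSectionVars false

namespace CF.Rt.BC

open Subgroup CF.BG CF.BG2 CF.Pgp
open scoped commutatorElement

variable {G : Type*} [Group G] [Finite G] {A B C D E H K L M N P Q R S : Subgroup G} {x y u : G} {p : ℕ}
  [hp : Fact p.Prime]

theorem qt_Phip (k : PiGrp {p} H) (n : H ≤ 𝐍 K) : qt K (𝚽 H) = 𝚽 (qt K H) := by
  refine le_antisymm ((qt_le_iff ((Phi_le H).trans n)).2 (k.Phi_le_iff.2 ⟨?_, fun x hx => ?_⟩))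
    ((k.qt K).Phi_le_iff.2 ⟨?_, fun z hz => ?_⟩)
  · rw [← qt_le_iff ((der_le H).trans n), qt_comm n n]; exact (k.qt K).der_le_Phi
  · exact mem_qp.2 ⟨pow_mem (n hx) p, by
      rw [qe_pow (n hx)]; exact (k.qt K).pow_mem_Phi (qe_mem_qt hx (n hx))⟩
  · rw [← qt_comm n n]; exact qt_mono _ k.der_le_Phi
  · obtain ⟨w, hw, nw, rfl⟩ := mem_qt.1 hz
    rw [← qe_pow nw]; exact qe_mem_qt (k.pow_mem_Phi hw) (pow_mem nw p)

theorem qt_Blp (k : PiGrp {p} P) (n : P ≤ 𝐍 K) : qt K (Bl P) = Bl (qt K P) := by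
  have d : ⁅P, P⁆ ≤ 𝐍 K := (der_le P).trans n
  rw [Bl, Bl, qt_sup ((Phi_le _).trans d) ((comm_le_left (der_normal P).norm).trans d),
    qt_Phip (k.le (der_le P)) d, qt_comm d n, qt_comm n n]

theorem blackburn_stepp (k : PiGrp {p} P) (hN : Elem p 1 N (Bl P ⊓ 𝐙 P)) (h : MM N P) : Meta P := by
  have d := der_normal P
  have n := normalIn_of_le_center (hN.le.trans inf_le_right)
  obtain ⟨s, hs, t, ht, s5, e⟩ := h
  have ns := n.norm hs
  have s4 : N ⊔ zpowers s ⊴ P := ⟨sup_le n.le (zpowers_le.2 hs), s5⟩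
  have e1 : zpowers s ⊔ zpowers t = P := eq_of_le_sup_Phi (sup_le (zpowers_le.2 hs) (zpowers_le.2 ht))
    (e.trans (sup_le (le_sup_of_le_right ((hN.le.trans inf_le_left).trans ((Bl_le_der P).trans
      k.der_le_Phi))) le_sup_left))
  have cN : N ≤ 𝐂 P := (hN.le.trans inf_le_right).trans inf_le_right
  have aS : Abel (N ⊔ zpowers s) := hN.abel.sup (abel_zpowers s) (cent_mono cN le_rfl (zpowers_le.2 hs))
  have c1 : ⁅N ⊔ zpowers s, zpowers t⁆ = zpowers ⁅s, t⁆ := by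
    refine le_antisymm (fun w hw => ?_) (zpowers_le.2 (commutator_mem_commutator
      (mem_sup_right (mem_zpowers s)) (mem_zpowers t)))
    obtain ⟨x, hx, rfl⟩ := (PLocal.mem_commutator_zpowers_iff aS.comm (s4.norm ht)).1 hw
    obtain ⟨z, hz, _, ⟨i, rfl⟩, rfl⟩ := (mem_sup_norm' (zpowers_le.2 ns)).1 hx
    refine ⟨i, ?_⟩
    have c2 : Commute s (t * s⁻¹ * t⁻¹) := aS.mul_comm (mem_sup_right (mem_zpowers s))
      (s4.conj_mem ht (inv_mem (mem_sup_right (mem_zpowers s))))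
    have c3 := comm_of_cent (cN hz) (commutator_mem_commutator (zpow_mem hs i) ht |> der_le P)
    have c4 := comm_of_cent (cN hz) ht
    calc ⁅s, t⁆ ^ i = (s * (t * s⁻¹ * t⁻¹)) ^ i := by simp only [commutatorElement_def, mul_assoc]
      _ = ⁅s ^ i, t⁆ := by rw [c2.mul_zpow, conj_zpow, inv_zpow, commutatorElement_def]; group
      _ = z * ⁅s ^ i, t⁆ * z⁻¹ * ⁅z, t⁆ := by
        rw [c3.eq, commutatorElement_eq_one_iff_commute.2 c4]; group
      _ = _ := by simp only [commutatorElement_def]; group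
  have d1 := der_le_zpowers e1 (by
    rw [← c1, ← e1]
    exact sup_le (le_sup_right.trans (norm_comm_left _ _)) (norm_comm_right _ _))
  have c5 := commutator_mem_commutator hs ht
  have d2 : ⁅P, P⁆ = zpowers ⁅s, t⁆ := le_antisymm d1 (zpowers_le.2 c5)
  have ne : ⁅P, P⁆ ≠ ⊥ := fun e => hN.ne_bot (le_bot_iff.1 (((hN.le.trans inf_le_left).trans
    (Bl_le_der P)).trans e.le))
  have l : N ≤ zpowers s := by
    refine ((hN.le.trans inf_le_left).trans (sup_le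
      (le_zpowers_pow hp.out (k.elt (der_le P c5)) (d2 ▸ Phi_lt ne))
      (le_zpowers_pow hp.out (k.elt (der_le P c5)) (d2 ▸ k.nil.comm_lt d ne)))).trans
      (zpowers_le.2 ?_)
    obtain ⟨z, hz, y, hy, e⟩ := (mem_sup_norm' (zpowers_le.2 ns)).1
      (comm_le_left (zpowers_le.2 (s4.norm ht)) (c1.ge (mem_zpowers _)))
    rw [← e, Commute.mul_pow (aS.mul_comm (mem_sup_left hz) (mem_sup_right hy)), hN.ab.pow z hz, one_mul]
    exact pow_mem hy p
  rw [sup_eq_right.2 l] at s4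
  exact meta_of_sup s4 ht e1.ge

universe v in
theorem blackburn_auxp (m : ℕ) : ∀ {G : Type v} [Group G] [Finite G] (P : Subgroup G), ♯P < m →
    PiGrp {p} P → MM (Bl P) P → Meta P := by
  induction m with
  | zero => intro _ _ _ _ h; omega
  | succ m ih =>
  intro G _ _ P lt k ⟨s, hs, t, ht, h1, h2⟩
  by_cases h0 : Bl P = ⊥
  · rw [h0, bot_sup_eq] at h1 h2
    exact meta_of_sup ⟨zpowers_le.2 hs, h1⟩ ht h2
  have b := Bl_normal (NormalIn.refl P)
  obtain ⟨N, hN⟩ := k.exists_elem_center b h0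
  have n := normalIn_of_le_center (hN.le.trans inf_le_right)
  refine blackburn_stepp k hN (mm_of_qt n (ih (qt N P) (by have := card_qt_lt n hN.ne_bot; omega) (k.qt N)
    ⟨_, qe_mem_qt hs (n.norm hs), _, qe_mem_qt ht (n.norm ht), ?_, ?_⟩))
  · rw [← qt_Blp k n.norm, ← qt_zpowers (n.norm hs), ← qt_sup (b.le.trans n.norm) (zpowers_le.2 (n.norm hs))]
    exact qt_norm N h1
  · rw [← qt_Blp k n.norm, ← qt_zpowers (n.norm hs), ← qt_zpowers (n.norm ht),
      ← qt_sup (zpowers_le.2 (n.norm hs)) (zpowers_le.2 (n.norm ht)), ← qt_sup (b.le.trans n.norm)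
        (sup_le (zpowers_le.2 (n.norm hs)) (zpowers_le.2 (n.norm ht)))]
    exact qt_mono N h2

/-- Blackburn's criterion -/
theorem blackburnp (k : PiGrp {p} P) (h : Meta (qt (Bl P) P)) : Meta P :=
  blackburn_auxp _ P (Nat.lt_succ_self _) k (mm_of_qt (Bl_normal (NormalIn.refl P)) h)

theorem Bl_qt_Blp (k : PiGrp {p} P) : Bl (qt (Bl P) P) = ⊥ := by
  rw [← qt_Blp k (Bl_normal (NormalIn.refl P)).norm, qt_self]


theorem mem_zpowers_cop (k : PiElt {p} x) {a : ℕ} (ha : ¬ p ∣ a) : x ∈ zpowers (x ^ a) := by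
  obtain ⟨n, hn⟩ : ∃ n, orderOf x = p ^ n := ⟨_, k.eq_pow_logn (orderOf_pos x).ne'⟩
  exact mem_zpowers_pow_iff.2 (by
    rw [hn]; exact Nat.Coprime.pow_right _ ((Nat.Prime.coprime_iff_not_dvd hp.out).2 ha).symm)

theorem Bic.meta_of_memp (h : Bic P x u) (k : PiGrp {p} P) {a b : ℕ} (hab : ¬ p ∣ a ∨ ¬ p ∣ b)
    (d : ⁅P, P⁆ ≤ zpowers (x ^ a * u ^ b)) : Meta P := by
  have g := mul_mem (pow_mem h.hx a) (pow_mem h.hy b)
  have n := normalIn_of_der_le (zpowers_le.2 g) d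
  rcases hab with o | o
  · refine meta_of_sup n h.hy (h.sup.ge.trans (sup_le (zpowers_le.2 ?_) le_sup_right))
    refine (zpowers_le.2 ?_ : zpowers (x ^ a) ≤ _) (mem_zpowers_cop (k.elt h.hx) o)
    exact (mul_mem_cancel_right (mem_sup_right (pow_mem (mem_zpowers u) b))).1 (mem_sup_left (mem_zpowers _))
  · refine meta_of_sup n h.hx (h.sup.ge.trans (sup_le le_sup_right (zpowers_le.2 ?_)))
    refine (zpowers_le.2 ?_ : zpowers (u ^ b) ≤ _) (mem_zpowers_cop (k.elt h.hy) o)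
    exact (mul_mem_cancel_left (mem_sup_right (pow_mem (mem_zpowers x) a))).1 (mem_sup_left (mem_zpowers _))

theorem Bic.class_twop (h : Bic P x u) (k : PiGrp {p} P) (h2 : p ≠ 2) (h0 : Bl P = ⊥) : Meta P := by
  rw [Bl, sup_eq_bot_iff] at h0
  have c := comm_eq_bot.1 h0.2
  have e := (((k.le (der_le P)).Phi_eq_bot).1 h0.1).pow
  have cm := commutator_mem_commutator h.hy h.hx
  have cz : ∀ {w}, w ∈ P → Commute w ⁅u, x⁆ := fun hw => (comm_of_cent (c cm) hw).symm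
  have d : ⁅P, P⁆ ≤ zpowers ⁅u, x⁆ := der_le_zpowers h.symm.sup (norm_of_cent' (zpowers_le.2 (c cm)))
  have c2 := e _ cm
  have kc := k.elt (der_le P cm)
  have cab : ∀ a b : ℕ, ⁅u ^ b, x ^ a⁆ = ⁅u, x⁆ ^ (a * b) := fun a b => by
    rw [Transfer.commutatorElement_pow_left' (by
      rw [Transfer.commutatorElement_pow_right' (cz h.hx)]; exact (cz h.hy).pow_right a),
      Transfer.commutatorElement_pow_right' (cz h.hx), pow_mul]
  by_cases h1 : ⁅u, x⁆ = 1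
  · exact h.meta_of_memp k (a := 1) (b := 0) (.inl hp.out.not_dvd_one) (d.trans (by simp [h1]))
  have z : ∀ {i : ℕ}, ⁅u, x⁆ ^ i = 1 → p ∣ i := fun {i} hi => by
    by_contra o
    exact h1 (by simpa [hi] using mem_zpowers_cop kc o)
  obtain ⟨i, j, e1⟩ := h.ex _ (der_le P cm)
  have hi : p ∣ i := z (by
    have := cab i 1
    rw [pow_one, mul_one] at this
    rw [← this, eq_mul_inv_of_mul_eq e1.symm, commutatorElement_eq_one_iff_commute]
    exact (cz h.hy).mul_right ((Commute.refl u).pow_right j).inv_right)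
  have hj : p ∣ j := z (by
    have := cab 1 j
    rw [pow_one, one_mul] at this
    rw [← this, eq_inv_mul_of_mul_eq e1.symm, commutatorElement_eq_one_iff_commute]
    exact (((Commute.refl x).pow_right i).inv_right.mul_right (cz h.hx)).symm)
  obtain ⟨n, ⟨a, b, e2⟩, e3⟩ : ∃ n, (∃ a b : ℕ, ⁅u, x⁆ = x ^ (p ^ (n + 1) * a) * u ^ (p ^ (n + 1) * b)) ∧
      ¬ ∃ a b : ℕ, ⁅u, x⁆ = x ^ (p ^ (n + 1 + 1) * a) * u ^ (p ^ (n + 1 + 1) * b) := by
    by_contra! hc
    have : ∀ n, ∃ a b : ℕ, ⁅u, x⁆ = x ^ (p ^ (n + 1) * a) * u ^ (p ^ (n + 1) * b) := fun n => by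
      induction n with
      | zero => obtain ⟨a, rfl⟩ := hi; obtain ⟨b, rfl⟩ := hj; exact ⟨a, b, by rw [e1]; ring_nf⟩
      | succ n ih => exact hc n ih
    obtain ⟨a, b, e4⟩ := this (logn p (♯P))
    have t : ∀ g ∈ P, g ^ p ^ logn p (♯P) = 1 := fun g hg => by
      rw [← k.card_eq, ← orderOf_dvd_iff_pow_eq_one]; exact orderOf_dvd_card' hg
    exact h1 (by rw [e4, pow_succ, mul_assoc, mul_assoc, pow_mul x, pow_mul u, t x h.hx, t u h.hy]; simp)
  have hab : ¬ p ∣ a ∨ ¬ p ∣ b := by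
    by_contra! hc
    obtain ⟨a, rfl⟩ := hc.1
    obtain ⟨b, rfl⟩ := hc.2
    exact e3 ⟨a, b, by rw [e2]; ring_nf⟩
  have e4 := Transfer.mul_pow_of_class_two (a := x ^ a) (b := u ^ b) (by
    rw [cab]; exact (cz (pow_mem h.hx a)).pow_right _) (by rw [cab]; exact (cz (pow_mem h.hy b)).pow_right _)
      (p ^ (n + 1))
  rw [← pow_mul, ← pow_mul, mul_comm a, mul_comm b, ← e2, cab, ← pow_mul] at e4
  obtain ⟨m, hm⟩ : p ∣ a * b * (p ^ (n + 1)).choose 2 := by
    refine Dvd.dvd.mul_left ?_ _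
    rw [Nat.choose_two_right, Nat.mul_div_assoc _ (((hp.out.odd_of_ne_two h2).pow).tsub_odd odd_one).two_dvd]
    exact Dvd.dvd.mul_right (dvd_pow_self p n.succ_ne_zero) _
  rw [hm, pow_mul, c2, one_pow, mul_one] at e4
  exact h.meta_of_memp k hab (d.trans (zpowers_le.2 (e4 ▸ pow_mem (mem_zpowers _) _)))

/-- Huppert -/
theorem Bic.meta_odd (h : Bic P x u) (k : PiGrp {p} P) (h2 : p ≠ 2) : Meta P :=
  blackburnp k ((h.qt (Bl_normal (NormalIn.refl P)).norm).class_twop (k.qt _) h2 (Bl_qt_Blp k))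

omit hp in
theorem meta_card_le {n : ℕ} (n0 : 0 < n) (m : Meta P) (h : ∀ g ∈ P, g ^ n = 1) : ♯P ≤ n ^ 2 := by
  obtain ⟨k, hk, g, hg, n1, e⟩ := meta_gen m
  have o : ∀ g ∈ P, ♯(zpowers g) ≤ n := fun g hg => by
    rw [Nat.card_zpowers]; exact Nat.le_of_dvd n0 (orderOf_dvd_of_pow_eq_one (h g hg))
  have := Nat.le_of_dvd (Nat.mul_pos Nat.card_pos Nat.card_pos) (card_sup_dvd (.inr (zpowers_le.2 (n1.norm hg))))
  rw [e] at this
  exact this.trans (pow_two n ▸ Nat.mul_le_mul (o k hk) (o g hg))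

end CF.Rt.BC
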